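import Cfsg.Agent.LThreeM.FiPar

/-!
# Elements of order 3 of `Fi22` and `Fi23`

* `three22'` : an element of order 3 of `Fi22` moves a transposition to another commuting one or
  commutes with two distinct commuting transpositions;
* `triple` : an element of order 3 of `Fi23` commutes with the product of three distinct commuting
  transpositions.
-/

set_option autoImplicit false
set_option linter.unusedSectionVars false
set_option linter.constructorNameAsVariable false
set_option maxRecDepth 10000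

namespace Cfsg.Agent.H948.WfFi

open Cfsg Cfsg.Spor Cfsg.Agent.Fischer.Abstract Cfsg.Agent.LThreeM.SrgFix
open Cfsg.Agent.R01 Cfsg.Agent.R01.Lifts Cfsg.Agent.R08.FiTwentyThree
open Cfsg.Agent.Fischer.Fi23Class (K)
open Cfsg.Agent.Fischer.Fi23Z (z0)
open Cfsg.Agent.LThreeM.FiThree (Pair Triple conjD ncard_S)

section fi22

open Cfsg.Agent.Fischer.Rank22 Cfsg.Agent.Fischer.Group22

/-- two adjacent fixed points -/
theorem exists_adj_fixed {g : G} (hg : g ^ 3 = 1) (hna : ∀ x : X, ¬ Adj R x (g • x)) :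
    ∃ x y : X, Adj R x y ∧ g • x = x ∧ g • y = y := by
  classical
  obtain ⟨z, hz⟩ := count R Cfsg.Agent.LThreeM.FiTwo.nb_card Cfsg.Agent.LThreeM.FiTwo.cn_c
    Cfsg.Agent.LThreeM.FiTwo.cn_b (s := -9) (by norm_num) (by norm_num) (n := 3) (by norm_num) hg
  have e2 : ({x : X | Adj R x (g • x)} : Set X) = ∅ := by
    ext x
    exact ⟨fun h => absurd h (hna x), fun h => absurd h (Set.notMem_empty x)⟩
  rw [e2, Set.ncard_empty] at hz
  have hcard : Fintype.card {x : X // g • x = x} = ({x : X | g • x = x} : Set X).ncard := by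
    rw [← Nat.card_coe_set_eq, ← Nat.card_eq_fintype_card]
    rfl
  rw [← hcard] at hz
  have h2 : 2 ∣ Fintype.card {x : X // g • x = x} := by
    have : (2 : ℤ) ∣ (Fintype.card {x : X // g • x = x} : ℤ) := by
      push_cast at hz
      omega
    exact_mod_cast this
  have h0 : 0 < Fintype.card {x : X // g • x = x} := by
    rcases Nat.eq_zero_or_pos (Fintype.card {x : X // g • x = x}) with h | h
    · exfalso
      rw [h] at hz
      push_cast at hz
      omega
    · exact h
  obtain ⟨⟨x, hx⟩⟩ := Fintype.card_pos_iff.1 h0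
  have hgx : g * R.t x = R.t x * g := (R.smul_eq_iff_comm g x).1 hx
  have hst : ∀ y : X, g • y = y ↔ g • (MulAction.toPerm (R.t x) y) = MulAction.toPerm (R.t x) y := by
    intro y
    rw [MulAction.toPerm_apply, ← mul_smul, hgx, mul_smul, (MulAction.injective (R.t x)).eq_iff]
  let σ : Equiv.Perm {x : X // g • x = x} := (MulAction.toPerm (R.t x)).subtypePerm fun y => (hst y).symm
  have hσ : σ ^ 2 ^ 1 = 1 := by
    ext1 y
    apply Subtype.ext
    show R.t x • R.t x • (y : X) = y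
    rw [← mul_smul, R.sq' x, one_smul]
  have hσx : σ ⟨x, hx⟩ = ⟨x, hx⟩ := by
    apply Subtype.ext
    show R.t x • x = x
    exact (R.smul_eq_iff_comm _ x).2 rfl
  have : Fact (Nat.Prime 2) := ⟨Nat.prime_two⟩
  obtain ⟨⟨y, hy⟩, hσy, hne⟩ := σ.exists_fixed_point_of_prime' h2 hσ hσx
  refine ⟨x, y, ⟨fun e => hne (Subtype.ext e.symm), ?_⟩, hx, hy⟩
  have h3 : R.t x • y = y := congrArg Subtype.val hσy
  exact (R.smul_eq_iff_comm _ y).1 h3

end fi22

/-- **Elements of order 3** of `Fi22`. -/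
theorem three22' {g : Fi22} (hg : g ^ 3 = 1) :
    (∃ a ∈ Fi22Facts.T, ∃ b ∈ Fi22Facts.T, a ≠ b ∧ a * b = b * a ∧ g * a = a * g ∧ g * b = b * g) ∨
      ∃ a ∈ Fi22Facts.T, a ≠ g * a * g⁻¹ ∧ a * (g * a * g⁻¹) = (g * a * g⁻¹) * a := by
  obtain ⟨h, rfl⟩ := Fi22Facts.E.surjective g
  have hh : h ^ 3 = 1 := by
    apply Fi22Facts.E.injective
    rw [map_pow, hg, map_one]
  by_cases hna : ∀ x, ¬ Adj Cfsg.Agent.Fischer.Rank22.R x (h • x)
  · obtain ⟨x, y, hxy, hx, hy⟩ := exists_adj_fixed hh hna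
    left
    refine ⟨_, Fi22Facts.mem_T_iff.2 ⟨x, rfl⟩, _, Fi22Facts.mem_T_iff.2 ⟨y, rfl⟩, ?_, ?_, ?_, ?_⟩
    · intro e
      exact hxy.1 (Cfsg.Agent.Fischer.Rank22.R.t_injective (Fi22Facts.E.injective e))
    · rw [← map_mul, ← map_mul]
      exact congrArg _ hxy.2
    · rw [← map_mul, ← map_mul]
      exact congrArg _ ((Cfsg.Agent.Fischer.Rank22.R.smul_eq_iff_comm h x).1 hx)
    · rw [← map_mul, ← map_mul]
      exact congrArg _ ((Cfsg.Agent.Fischer.Rank22.R.smul_eq_iff_comm h y).1 hy)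
  · push Not at hna
    obtain ⟨x, h1⟩ := hna
    right
    refine ⟨_, Fi22Facts.mem_T_iff.2 ⟨x, rfl⟩, ?_⟩
    rw [Fi22Facts.E_smul]
    constructor
    · intro e
      have h2 := Fi22Facts.E.injective e
      exact h1.1 (Cfsg.Agent.Fischer.Rank22.R.t_injective h2)
    · rw [← map_mul, ← map_mul]
      exact congrArg _ h1.2

/-- elements of order 3 of `K` -/
theorem threeK' {g : K} (hg : g ^ 3 = 1) :
    (∃ a ∈ S, ∃ b ∈ S, a ≠ b ∧ a * b = b * a ∧ g * a = a * g ∧ g * b = b * g) ∨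
    ∃ a ∈ S, ∃ b ∈ S, ∃ c ∈ S, a ≠ b ∧ a ≠ c ∧ b ≠ c ∧ a * b = b * a ∧ a * c = c * a ∧ b * c = c * b ∧
      g * (a * b * c) = (a * b * c) * g := by
  rcases three22' (g := pi g) (by rw [← map_pow, hg, map_one]) with
    ⟨a', ha', b', hb', hne, hab, hga, hgb⟩ | ⟨a', ha', h1, h2⟩
  · left
    obtain ⟨a, ha, rfl⟩ := lifted.surj a' ha'
    obtain ⟨b, hb, rfl⟩ := lifted.surj b' hb'
    have key : ∀ c ∈ S, pi g * pi c = pi c * pi g → g * c = c * g := by
      intro c hc h
      have h3 : g * c * g⁻¹ = c := by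
        apply lifted.inj _ (lifted.conj g c hc) _ hc
        rw [map_mul, map_mul, h, map_inv]
        group
      calc g * c = (g * c * g⁻¹) * g := by group
        _ = c * g := by rw [h3]
    exact ⟨a, ha, b, hb, fun e => hne (by rw [e]), comm_of_image ha hb hab, key a ha hga, key b hb hgb⟩
  · obtain ⟨a, ha, rfl⟩ := lifted.surj a' ha'
    right
    set b := g * a * g⁻¹ with hb
    set c := g * b * g⁻¹ with hc
    have hbS : b ∈ S := lifted.conj g a ha
    have hcS : c ∈ S := lifted.conj g b hbS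
    have hca : g * c * g⁻¹ = a := by
      rw [hc, hb]
      calc g * (g * (g * a * g⁻¹) * g⁻¹) * g⁻¹ = g ^ 3 * a * (g ^ 3)⁻¹ := by
            rw [pow_succ, pow_two]; group
        _ = a := by rw [hg]; group
    have hne : a ≠ b := by
      intro e
      apply h1
      have := congrArg pi e
      rw [hb, map_mul, map_mul, map_inv] at this
      exact this
    have hab : a * b = b * a := by
      apply comm_of_image ha hbS
      rw [hb, map_mul, map_mul, map_inv]
      exact h2
    have hconj : ∀ {x y : K}, x * y = y * x → (g * x * g⁻¹) * (g * y * g⁻¹) = (g * y * g⁻¹) * (g * x * g⁻¹) := by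
      intro x y h
      calc (g * x * g⁻¹) * (g * y * g⁻¹) = g * (x * y) * g⁻¹ := by group
        _ = g * (y * x) * g⁻¹ := by rw [h]
        _ = _ := by group
    have hbc : b * c = c * b := by
      have := hconj hab
      rwa [← hb, ← hc] at this
    have hcaa : c * a = a * c := by
      have := hconj hbc
      rwa [← hc, hca] at this
    have hne2 : b ≠ c := by
      intro e
      apply hne
      have e2 : g * a * g⁻¹ = g * b * g⁻¹ := by rw [← hb, ← hc]; exact e
      exact mul_left_cancel (mul_right_cancel e2)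
    have hne3 : a ≠ c := by
      intro e
      apply hne2
      have e2 : g * c * g⁻¹ = g * b * g⁻¹ := by rw [hca, ← hc]; exact e
      exact (mul_left_cancel (mul_right_cancel e2)).symm
    refine ⟨a, ha, b, hbS, c, hcS, hne, hne3, hne2, hab, hcaa.symm, hbc, ?_⟩
    calc g * (a * b * c) = (g * a * g⁻¹) * (g * b * g⁻¹) * (g * c * g⁻¹) * g := by group
      _ = b * c * a * g := by rw [← hb, ← hc, hca]
      _ = (a * b * c) * g := by rw [mul_assoc b c a, hcaa, ← mul_assoc b a c, ← hab]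

/-- **Elements of order 3** of `Fi23`. -/
theorem triple {g : Fi23} (hg : g ^ 3 = 1) : ∃ s : Fi23, Triple s ∧ g * s = s * g := by
  rcases Cfsg.Agent.LThreeM.FiThree.three23 hg with ⟨a, ha, h⟩ | ⟨a, ha, b, hb, c, hc, h1, h2, h3, h4, h5, h6, h7⟩
  · obtain ⟨u, hu⟩ := conjD ha
    have hk : u * g * u⁻¹ ∈ K := by
      rw [mem_K_iff, ← hu]
      calc u * g * u⁻¹ * (u * a * u⁻¹) = u * (g * a) * u⁻¹ := by group
        _ = u * (a * g) * u⁻¹ := by rw [h]
        _ = _ := by group
    have hk3 : (⟨u * g * u⁻¹, hk⟩ : K) ^ 3 = 1 := by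
      apply Subtype.ext
      rw [Subgroup.coe_pow, Subgroup.coe_one]
      change (u * g * u⁻¹) ^ 3 = 1
      rw [conj_pow, hg]
      group
    have back : ∀ {s : Fi23}, u * g * u⁻¹ * s = s * (u * g * u⁻¹) → g * (u⁻¹ * s * u) = (u⁻¹ * s * u) * g := by
      intro s hs
      calc g * (u⁻¹ * s * u) = u⁻¹ * (u * g * u⁻¹ * s) * u := by group
        _ = u⁻¹ * (s * (u * g * u⁻¹)) * u := by rw [hs]
        _ = _ := by group
    have hcD : ∀ {d : Fi23}, d ∈ D → u⁻¹ * d * u ∈ D := by
      intro d hd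
      have := conj_mem_D hd u⁻¹
      rwa [inv_inv] at this
    have hinj : ∀ {d e : Fi23}, d ≠ e → u⁻¹ * d * u ≠ u⁻¹ * e * u := by
      intro d e h h'
      exact h (mul_left_cancel (mul_right_cancel h'))
    have hcm : ∀ {d e : Fi23}, d * e = e * d → u⁻¹ * d * u * (u⁻¹ * e * u) = u⁻¹ * e * u * (u⁻¹ * d * u) := by
      intro d e h
      calc u⁻¹ * d * u * (u⁻¹ * e * u) = u⁻¹ * (d * e) * u := by group
        _ = u⁻¹ * (e * d) * u := by rw [h]
        _ = _ := by group
    rcases threeK' hk3 with ⟨e, he, f, hf, hef, hc, h1, h2⟩ | ⟨e, he, f, hf, c, hc, h1, h2, h3, h4, h5, h6, h7⟩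
    · have h1' : u * g * u⁻¹ * (e : Fi23) = e * (u * g * u⁻¹) := congrArg Subtype.val h1
      have h1'' : u * g * u⁻¹ * (f : Fi23) = f * (u * g * u⁻¹) := congrArg Subtype.val h2
      have h2' : z0 * (e : Fi23) = e * z0 := ((mem_K_iff _).1 e.2).symm
      have h2'' : z0 * (f : Fi23) = f * z0 := ((mem_K_iff _).1 f.2).symm
      have h3 : u * g * u⁻¹ * z0 = z0 * (u * g * u⁻¹) := (mem_K_iff _).1 hk
      have hc' : (e : Fi23) * f = f * e := congrArg Subtype.val hc
      refine ⟨u⁻¹ * (z0 * e * f) * u, ⟨u⁻¹ * z0 * u, hcD z0_mem_D, u⁻¹ * e * u, hcD he.1,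
        u⁻¹ * f * u, hcD hf.1, hinj he.2.symm, hinj hf.2.symm, hinj fun h => hef (Subtype.ext h),
        hcm h2', hcm h2'', hcm hc', by group⟩, back ?_⟩
      calc u * g * u⁻¹ * (z0 * (e : Fi23) * f) = (u * g * u⁻¹ * z0) * e * f := by group
        _ = z0 * (u * g * u⁻¹ * e) * f := by rw [h3]; group
        _ = z0 * e * (u * g * u⁻¹ * f) := by rw [h1']; group
        _ = z0 * e * f * (u * g * u⁻¹) := by rw [h1'']; group
    · refine ⟨u⁻¹ * ((e : Fi23) * f * c) * u, ⟨u⁻¹ * e * u, hcD he.1, u⁻¹ * f * u, hcD hf.1,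
        u⁻¹ * c * u, hcD hc.1, hinj fun h => h1 (Subtype.ext h), hinj fun h => h2 (Subtype.ext h),
        hinj fun h => h3 (Subtype.ext h), hcm (congrArg Subtype.val h4), hcm (congrArg Subtype.val h5),
        hcm (congrArg Subtype.val h6), by group⟩, back ?_⟩
      exact congrArg Subtype.val h7
  · exact ⟨a * b * c, ⟨a, ha, b, hb, c, hc, h1, h2, h3, h4, h5, h6, rfl⟩, h7⟩

end Cfsg.Agent.H948.WfFi
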